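import Cfsg.Agent.TwoF.XS.Rep
import Cfsg.Agent.TwoF.XL.Base

/-!
# TwoF / XL / L2: a Borel subgroup of rank one, lower bounds for `cod` in characteristic two (helper77)
-/

set_option autoImplicit false

namespace Cfsg.Agent.TwoF.XL.L2

open Module Gen Subgroup XE XS

/-- a root group `u` with the torus `h` -/
structure Bor (F : Type) [Field F] (S : Type) [Group S] where
  /-- the root elements -/
  u : F → S
  /-- the torus -/
  h : Fˣ →* S
  add : ∀ a b, u (a + b) = u a * u b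
  inj : ∀ a, u a = 1 → a = 0
  cnj : ∀ (x : Fˣ) c, h x * u c * (h x)⁻¹ = u ((x : F) ^ 2 * c)
  ker : ∀ x : Fˣ, (x : F) ^ 2 = 1 → h x = 1

variable {F : Type} [Field F] {S : Type} [Group S] (B : Bor F S)

theorem Bor.zero : B.u 0 = 1 := by
  have := B.add 0 0
  rw [add_zero] at this
  exact left_eq_mul.1 this

theorem Bor.neg (a : F) : B.u (-a) = (B.u a)⁻¹ := by
  rw [eq_inv_iff_mul_eq_one, ← B.add, neg_add_cancel, B.zero]

theorem Bor.pow (a : F) (n : ℕ) : B.u a ^ n = B.u (n * a) := by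
  induction n with
  | zero => rw [pow_zero, Nat.cast_zero, zero_mul, B.zero]
  | succ n ih => rw [pow_succ, ih, ← B.add, Nat.cast_succ, add_mul, one_mul]

theorem Bor.injective : Function.Injective B.u := fun a b e =>
  sub_eq_zero.1 (B.inj _ (by rw [sub_eq_add_neg, B.add, B.neg, e, mul_inv_cancel]))

/-- the root group -/
def Bor.U : Subgroup S where
  carrier := {g | ∃ c, g = B.u c}
  mul_mem' := by
    rintro _ _ ⟨c, rfl⟩ ⟨d, rfl⟩
    exact ⟨_, (B.add c d).symm⟩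
  one_mem' := ⟨0, B.zero.symm⟩
  inv_mem' := by
    rintro _ ⟨c, rfl⟩
    exact ⟨_, (B.neg c).symm⟩

theorem Bor.mem (c : F) : B.u c ∈ B.U := ⟨c, rfl⟩

theorem Bor.comm : ∀ a ∈ B.U, ∀ b ∈ B.U, a * b = b * a := by
  rintro _ ⟨c, rfl⟩ _ ⟨d, rfl⟩
  rw [← B.add, add_comm, B.add]

theorem Bor.exp (r : ℕ) [CharP F r] : ∀ a ∈ B.U, a ^ r = 1 := by
  rintro _ ⟨c, rfl⟩
  rw [B.pow, CharP.cast_eq_zero, zero_mul, B.zero]

theorem Bor.norm [Finite S] (x : Fˣ) : B.h x ∈ normalizer (B.U : Set S) := by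
  refine mem_normalizer_fintype ?_
  rintro _ ⟨c, rfl⟩
  exact ⟨_, B.cnj x c⟩

variable {r : ℕ} [Fact r.Prime] [CharP F r] [Finite S]

section rep

variable {V : Type} [AddCommGroup V] [Module (ZMod 2) V] [Finite V] {σ : Representation (ZMod 2) S V}

theorem Bor.cod_U (hr : r ≠ 2) (hσ : Function.Injective σ) (T : Finset F)
    (hT : ∀ t ∈ T, ∃ a : F, a ≠ 0 ∧ (t = a ^ 2 ∨ t = 2 * a ^ 2)) (h2 : (2 : F) ≠ 0) : T.card ≤ cod σ B.U := by
  classical
  have hk : (r : ZMod 2) ≠ 0 := cast_ne_zero Fact.out hr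
  obtain ⟨χ, h1, h3⟩ := exists_wt (ρ := bc (AlgebraicClosure (ZMod 2)) σ) (R := B.U) B.comm
    (card_ne_zero_closure (card_ne_zero_of_exp Fact.out hk (B.exp r))) (r := ⟨_, B.mem 1⟩)
    (XL.bc_ne_one _ fun e => one_ne_zero (B.inj 1 (hσ (e.trans (map_one σ).symm))))
  have key : ∀ t ∈ T, ∃ ψ : B.U →* (AlgebraicClosure (ZMod 2))ˣ, 0 < mlt (bc (AlgebraicClosure (ZMod 2)) σ) _ ψ ∧
      ∀ c, ψ ⟨_, B.mem c⟩ = χ ⟨_, B.mem (t * c)⟩ := fun t ht => by
    obtain ⟨a, ha, h⟩ := hT t ht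
    have hg := inv_mem (B.norm (Units.mk0 a ha))
    have h4 : ∀ c, tw _ hg χ ⟨_, B.mem c⟩ = χ ⟨_, B.mem (a ^ 2 * c)⟩ := fun c =>
      tw_apply_of_eq hg χ (by rw [inv_inv]; exact (B.cnj (Units.mk0 a ha) c).symm)
    rcases h with rfl | rfl
    · exact ⟨tw _ hg χ, by rwa [mlt_tw], h4⟩
    · refine ⟨tw _ hg χ ^ Fintype.card (ZMod 2), by rwa [mlt_pow_card, mlt_tw], fun c => ?_⟩
      rw [ZMod.card, MonoidHom.pow_apply, h4, ← map_pow]
      congr 1
      refine Subtype.ext ?_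
      show B.u _ ^ 2 = B.u _
      rw [B.pow]
      congr 1
      push_cast
      ring
  choose! ψ hψ hψ' using key
  have hT0 : ∀ t ∈ T, t ≠ 0 := fun t ht => by
    obtain ⟨a, ha, rfl | rfl⟩ := hT t ht
    exacts [pow_ne_zero 2 ha, mul_ne_zero h2 (pow_ne_zero 2 ha)]
  have h5 : ∀ t ∈ T, ψ t ⟨_, B.mem t⁻¹⟩ ≠ 1 := fun t ht => by
    rw [hψ' t ht]
    simpa only [mul_inv_cancel₀ (hT0 t ht)] using h1
  have hinj : Set.InjOn ψ T := fun s hs t ht hst => by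
    by_contra h
    have h6 := sub_ne_zero.2 h
    have h7 := (hψ' s hs (s - t)⁻¹).symm.trans (hst ▸ hψ' t ht (s - t)⁻¹)
    refine h1 ?_
    have h8 : (⟨_, B.mem (s * (s - t)⁻¹)⟩ : B.U) = ⟨_, B.mem 1⟩ * ⟨_, B.mem (t * (s - t)⁻¹)⟩ := by
      refine Subtype.ext ?_
      show B.u _ = B.u _ * B.u _
      rw [← B.add]
      congr 1
      field_simp
      ring
    rw [h8, map_mul] at h7
    exact mul_eq_right.1 h7
  rw [← cod_bc (AlgebraicClosure (ZMod 2)), ← Finset.card_image_of_injOn hinj, ← mul_one (Finset.card _)]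
  refine card_mul_le_cod le_rfl _ (fun φ hφ h => ?_) fun φ hφ => ?_
  · obtain ⟨t, ht, rfl⟩ := Finset.mem_image.1 hφ
    exact h5 t ht (h _ (B.mem _))
  · obtain ⟨t, ht, rfl⟩ := Finset.mem_image.1 hφ
    exact hψ t ht

theorem Bor.cod_h (hr : r ≠ 2) (x : Fˣ) {o : ℕ} (ho : o ≤ orderOf (x ^ 2)) :
    (o - 1) * cod σ B.U ≤ o * cod σ (zpowers (B.h x)) := by
  have hk : (r : ZMod 2) ≠ 0 := cast_ne_zero Fact.out hr
  have h1 := frobenius_bound (ρ := σ) (R := B.U) B.comm (card_ne_zero_of_exp Fact.out hk (B.exp r))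
    (A := zpowers (B.h x)) (zpowers_le.2 (B.norm x)) (by
      rintro _ ⟨i, rfl⟩ h1 _ ⟨c, rfl⟩ e
      simp only [← map_zpow] at h1 e
      rw [← mul_inv_eq_iff_eq_mul, B.cnj] at e
      have h2 := B.injective e
      by_contra h3
      have h4 : c ≠ 0 := fun e' => h3 (by rw [e', B.zero])
      exact h1 (B.ker _ (mul_left_eq_self₀.1 h2 |>.resolve_right h4)))
  have h2 : o ≤ Nat.card (zpowers (B.h x)) := by
    rw [Nat.card_zpowers]
    refine ho.trans (Nat.le_of_dvd (orderOf_pos _) (orderOf_dvd_of_pow_eq_one ?_))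
    have h3 := B.cnj (x ^ orderOf (B.h x)) 1
    rw [map_pow, pow_orderOf_eq_one, one_mul, inv_one, mul_one, mul_one] at h3
    rw [← pow_mul, mul_comm, pow_mul]
    exact Units.ext (B.injective h3).symm
  generalize Nat.card (zpowers (B.h x)) = N at h1 h2
  generalize cod σ B.U = D at h1
  generalize cod σ (zpowers (B.h x)) = c at h1
  rcases o with _ | o
  · simp
  obtain ⟨k, rfl⟩ := Nat.exists_eq_add_of_le h2
  rw [Nat.add_sub_cancel]
  rw [show o + 1 + k - 1 = o + k by omega] at h1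
  rcases Nat.eq_zero_or_pos (o + k) with h3 | h3
  · obtain rfl : o = 0 := by omega
    simp
  refine Nat.le_of_mul_le_mul_left ?_ h3
  nlinarith [Nat.mul_le_mul_left o h1, Nat.zero_le (k * c)]

end rep

theorem Bor.lo_U (hz : Zc 2 S 1) (hr : r ≠ 2) (T : Finset F)
    (hT : ∀ t ∈ T, ∃ a : F, a ≠ 0 ∧ (t = a ^ 2 ∨ t = 2 * a ^ 2)) (h2 : (2 : F) ≠ 0) :
    Lo 2 (B.U.map MulAut.conj) T.card := by
  have := lo_of_rep hz (MonoidHom.id S) (B := B.U) (n := T.card) fun V _ _ _ σ hσ => B.cod_U hr hσ T hT h2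
  rwa [map_id] at this

theorem Bor.li_h (hz : Zc 2 S 1) (hr : r ≠ 2) (T : Finset F)
    (hT : ∀ t ∈ T, ∃ a : F, a ≠ 0 ∧ (t = a ^ 2 ∨ t = 2 * a ^ 2)) (h2 : (2 : F) ≠ 0) (x : Fˣ) {o c : ℕ}
    (ho : o ≤ orderOf (x ^ 2)) (hc : o * (c - 1) < (o - 1) * T.card) : Li 2 (B.h x) c :=
  li_of_rep hz (MonoidHom.id S) fun V _ _ _ σ hσ => by
    have h1 := (hc.trans_le (Nat.mul_le_mul_left _ (B.cod_U hr hσ T hT h2))).trans_le (B.cod_h hr x ho)
    have h3 := Nat.lt_of_mul_lt_mul_left h1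
    show c ≤ cod σ (zpowers (B.h x))
    omega

omit [Finite S] in
/-- **equal fixed spaces**: `g` is fixed by `t` and moved by `b` -/
theorem lo_trick (hz : Zc 2 S 1) {E : Subgroup (MulAut S)} {t b : MulAut S} (ht : t ∈ E) (hb : b ∈ E) {g : S}
    (hg : t g = g) {c : ℕ} (h1 : Le 2 t (c - 1)) (h2 : Li 2 (b g * g⁻¹) c) : Lo 2 E c :=
  fun Y _ _ V _ _ _ K ρ π φ H A hA => by
    obtain ⟨ι, e1, -, e3, e4⟩ := exists_iota hz H
    obtain ⟨t', ht', rfl⟩ := hA ht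
    obtain ⟨b', hb', rfl⟩ := hA hb
    by_contra h3
    have h4 := h1.elt H rfl
    have h5 : ι g * t' = t' * ι g := by rw [mul_inv_eq_iff_eq_mul.1 (e4 t' g), hg]
    have h6 := conj_mem_cl_of_comm (ρ := ρ) ht' (by omega) h5 (le_cl A (inv_mem hb'))
    have h7 := cod_le_of_mem_cl (mul_mem (le_cl A hb') h6)
    have h8 := h2.elt H (y := b' * (ι g * b'⁻¹ * (ι g)⁻¹)) (by
      rw [← e3, map_mul ι, ← e4, map_inv ι]
      congr 1
      group)
    omega

omit [Finite S] in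
/-- generation by conjugates -/
theorem le_of_reach {P : Subgroup S} {n k c : ℕ} (h : Lo 2 (P.map MulAut.conj) n) {α : MulAut S}
    (hα : H915.Gs.Reach α k ⊤) (hc : k * (c - 1) < n) : Le 2 α c :=
  le_of_elt fun Y _ _ V _ _ _ K ρ π φ H y hy => by
    have h1 := finrank_le_of_reach H (hy ▸ hα)
    have h2 := h Y V K ρ π φ H ⊤ (by
      rintro _ ⟨s, -, rfl⟩
      obtain ⟨x, rfl⟩ := H.surj s
      exact ⟨x, trivial, H.toFrm.φ_coe x⟩)
    have h3 := Nat.lt_of_mul_lt_mul_left ((hc.trans_le (h2.trans (cod_le_finrank _))).trans_le h1)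
    omega

end Cfsg.Agent.TwoF.XL.L2
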