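import Cfsg.Agent.TwoF.XL.L2.Mat
import Cfsg.Agent.TwoF.XL.Defs
import Cfsg.Agent.Mrg.Omega.TwoF.SignLift
import Cfsg.Agent.H915.Gs.RowTwo
import Cfsg.Agent.S2086

/-!
# TwoF / XL / L2: the rows `L₂(q)`, `q ≥ 11` odd, `p = 2` (helper77)
-/

set_option autoImplicit false

namespace Cfsg.Agent.TwoF.XL.L2

open Matrix Gen Subgroup XE XS
open Cfsg.Agent.ClassicalGeometry.AutPSL.Auto Cfsg.Agent.ClassicalGeometry.AutPSL.Main
open Cfsg.Agent.Omega.TwoF

variable {F : Type} [Field F] [Fintype F]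

local notation "S" => ProjectiveSpecialLinearGroup (Fin 2) F

theorem isSquare_mul {a b : F} (ha : ¬ IsSquare a) (hb : ¬ IsSquare b) : IsSquare (a * b) := by
  classical
  have h0 : a * b ≠ 0 := mul_ne_zero (fun e => ha (e ▸ IsSquare.zero)) fun e => hb (e ▸ IsSquare.zero)
  rw [← quadraticChar_one_iff_isSquare h0, map_mul, quadraticChar_neg_one_iff_not_isSquare.2 ha,
    quadraticChar_neg_one_iff_not_isSquare.2 hb]
  rfl

theorem exists_all (h2 : ¬ IsSquare (2 : F)) : ∃ T : Finset F, T.card = Fintype.card F - 1 ∧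
    ∀ t ∈ T, ∃ a : F, a ≠ 0 ∧ (t = a ^ 2 ∨ t = 2 * a ^ 2) := by
  classical
  refine ⟨Finset.univ.erase 0, by rw [Finset.card_erase_of_mem (Finset.mem_univ _), Finset.card_univ], fun t ht => ?_⟩
  have h0 := Finset.ne_of_mem_erase ht
  have h3 : (2 : F) ≠ 0 := fun e => h2 (e ▸ IsSquare.zero)
  by_cases h : IsSquare t
  · obtain ⟨a, rfl⟩ := h
    exact ⟨a, left_ne_zero_of_mul h0, Or.inl (pow_two a).symm⟩
  · obtain ⟨a, ha⟩ := isSquare_mul h2 h
    refine ⟨a / 2, div_ne_zero (left_ne_zero_of_mul (ha ▸ mul_ne_zero h3 h0)) h3, Or.inr ?_⟩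
    field_simp
    linear_combination ha

theorem exists_half : ∃ T : Finset F, Fintype.card F - 1 ≤ 2 * T.card ∧
    ∀ t ∈ T, ∃ a : F, a ≠ 0 ∧ (t = a ^ 2 ∨ t = 2 * a ^ 2) := by
  classical
  refine ⟨(Finset.univ.erase 0).image (· ^ 2), ?_, fun t ht => ?_⟩
  · rw [← Finset.card_univ, ← Finset.card_erase_of_mem (Finset.mem_univ (0 : F))]
    refine Finset.card_le_mul_card_image _ 2 fun t ht => ?_
    obtain ⟨a, -, rfl⟩ := Finset.mem_image.1 ht
    refine (Finset.card_le_card (t := {a, -a}) fun b hb => ?_).trans Finset.card_le_two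
    simpa using sq_eq_sq_iff_eq_or_eq_neg.1 (Finset.mem_filter.1 hb).2
  · obtain ⟨a, ha, rfl⟩ := Finset.mem_image.1 ht
    exact ⟨a, Finset.ne_of_mem_erase ha, Or.inl rfl⟩

theorem exists_eight (ho : Odd (Fintype.card F)) (hq : 11 ≤ Fintype.card F) : ∃ T : Finset F, 8 ≤ T.card ∧
    ∀ t ∈ T, ∃ a : F, a ≠ 0 ∧ (t = a ^ 2 ∨ t = 2 * a ^ 2) := by
  have h15 : Fintype.card F ≠ 15 := fun e => by
    obtain ⟨p, -, hp⟩ := isPrimePow_iff_unique_prime_dvd.1 (e ▸ FiniteField.isPrimePow_card F)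
    exact absurd ((hp 3 ⟨by norm_num, by norm_num⟩).trans (hp 5 ⟨by norm_num, by norm_num⟩).symm) (by norm_num)
  have h1 := Nat.odd_iff.1 ho
  by_cases h : 17 ≤ Fintype.card F
  · obtain ⟨T, h2, h3⟩ := exists_half (F := F)
    exact ⟨T, by omega, h3⟩
  · obtain ⟨T, h2, h3⟩ := exists_all (F := F) (by rw [FiniteField.isSquare_two_iff]; omega)
    exact ⟨T, by omega, h3⟩

theorem zc (hq : 11 ≤ Fintype.card F) : Zc 2 S 1 := fun K _ _ π h1 h2 => by
  have h3 := card_ker_dvd' (S2086.result rfl 2 le_rfl (fun _ => by omega) (by simp; omega)) K π h1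
  rcases (Nat.dvd_prime Nat.prime_two).1 (h3.trans (Nat.gcd_dvd_left _ _)) with h4 | h4
  · rw [h4]
  · exact (h2 (by rw [h4])).elim

theorem isSquare_neg_one {σ : F ≃+* F} (h1 : σ ≠ 1) (h2 : σ * σ = 1) : IsSquare (-1 : F) := by
  obtain ⟨x, hx⟩ : ∃ x, σ x ≠ x := by
    by_contra! e
    exact h1 (RingEquiv.ext e)
  have key : ∀ y : F, y ≠ 0 → σ y = -y → IsSquare y → IsSquare (-1 : F) := by
    rintro _ h3 h4 ⟨z, rfl⟩
    have h5 := left_ne_zero_of_mul h3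
    refine ⟨σ z / z, ?_⟩
    rw [map_mul] at h4
    field_simp
    linear_combination -h4
  have h3 : σ (σ x - x) = -(σ x - x) := by
    rw [map_sub, show σ (σ x) = x from congrArg (fun τ : F ≃+* F => τ x) h2, neg_sub]
  by_contra h4
  refine h4 (key (-1 * (σ x - x)) (mul_ne_zero (neg_ne_zero.2 one_ne_zero) (sub_ne_zero.2 hx)) ?_
    (isSquare_mul h4 fun h5 => h4 (key _ (sub_ne_zero.2 hx) h3 h5)))
  rw [neg_one_mul, map_neg, h3]

theorem le_card (ho : Odd (Fintype.card F)) (hq : 11 ≤ Fintype.card F) {σ : F ≃+* F} (h1 : σ ≠ 1) (h2 : σ * σ = 1) :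
    25 ≤ Fintype.card F := by
  have h3 := FiniteField.isSquare_neg_one_iff.1 (isSquare_neg_one h1 h2)
  have h4 := Nat.odd_iff.1 ho
  have h21 : Fintype.card F ≠ 21 := fun e => by
    obtain ⟨p, -, hp⟩ := isPrimePow_iff_unique_prime_dvd.1 (e ▸ FiniteField.isPrimePow_card F)
    exact absurd ((hp 3 ⟨by norm_num, by norm_num⟩).trans (hp 7 ⟨by norm_num, by norm_num⟩).symm) (by norm_num)
  by_contra h5
  have hr : (Fintype.card F).Prime := by
    rcases (show Fintype.card F = 13 ∨ Fintype.card F = 17 by omega) with e | e <;> rw [e] <;> norm_num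
  refine h1 (RingEquiv.ext fun a => ?_)
  obtain ⟨x, rfl⟩ := (ZMod.ringEquivOfPrime F hr rfl).surjective a
  exact RingHom.congr_fun (RingHom.ext_zmod (σ.toRingHom.comp (ZMod.ringEquivOfPrime F hr rfl).toRingHom)
    (ZMod.ringEquivOfPrime F hr rfl).toRingHom) x

/-- bounds for the split involutions, for a square in the torus and for the root group -/
structure Bd (F : Type) [Field F] (a b n : ℕ) : Prop where
  dg : ∀ C : GL (Fin 2) F, Dg C → Ps C ^ 2 = 1 → Le 2 (Ps C) a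
  tor : ∃ x : Fˣ, Li 2 ((bor F).h x⁻¹ * ((bor F).h x)⁻¹) b
  rt : Lo 2 ((bor F).U.map MulAut.conj) n

theorem bd (h2 : (2 : F) ≠ 0) (hq : 11 ≤ Fintype.card F) (T : Finset F)
    (hT : ∀ t ∈ T, ∃ a : F, a ≠ 0 ∧ (t = a ^ 2 ∨ t = 2 * a ^ 2)) {a b n o : ℕ} (hn : n ≤ T.card)
    (ha : 2 * (a - 1) < n) (ho : 4 * (o - 1) + 1 < Fintype.card F) (hb : o * (b - 1) < (o - 1) * n) : Bd F a b n := by
  classical
  obtain ⟨r, hr⟩ := CharP.exists F
  have : Fact r.Prime := ⟨CharP.char_is_prime F r⟩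
  have hr2 : r ≠ 2 := by
    rintro rfl
    exact h2 (CharP.cast_eq_zero F 2)
  have h1 := ((bor F).lo_U (zc hq) hr2 T hT h2).le hn
  refine ⟨fun C hC h3 => le_of_inverts (zc hq) (bor F).comm ((Fact.out : r.Prime).odd_of_ne_two hr2) ((bor F).exp r)
    h3 ?_ h1 ha, ?_, h1⟩
  · rintro _ ⟨c, rfl⟩
    rw [hC.u, Bor.neg]
  · obtain ⟨x, hx⟩ := IsCyclic.exists_generator (α := Fˣ)
    refine ⟨x⁻¹, ?_⟩
    rw [← map_inv, ← map_mul, inv_inv]
    refine (bor F).li_h (zc hq) hr2 T hT h2 _ (o := o) ?_ (hb.trans_le (Nat.mul_le_mul_left _ hn))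
    have h3 := orderOf_eq_card_of_forall_mem_zpowers hx
    rw [Nat.card_eq_fintype_card, Fintype.card_units] at h3
    have h4 : orderOf x ≤ 4 * orderOf ((x * x) ^ 2) := Nat.le_of_dvd (Nat.mul_pos four_pos (orderOf_pos _))
      (orderOf_dvd_of_pow_eq_one (by
        rw [pow_mul, show x ^ 4 = (x * x) ^ 2 by rw [← pow_two, ← pow_mul], pow_orderOf_eq_one]))
    omega

omit [Fintype F] in
theorem Ps_conj (P C : GL (Fin 2) F) : Ps (P⁻¹ * C * P) = Ps P⁻¹ * Ps C * (Ps P⁻¹)⁻¹ := by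
  rw [map_mul, map_mul, ← map_inv, inv_inv]

omit [Fintype F] in
/-- every involution of `PGL₂(F)` inverts a split torus -/
theorem Bd.any {a b n c : ℕ} (h : Bd F a b n) (h2 : (2 : F) ≠ 0) (hc : 2 * (c - 1) < b) {C : GL (Fin 2) F}
    (h1 : Ps C ≠ 1) (h3 : Ps C ^ 2 = 1) : Le 2 (Ps C) c := by
  obtain ⟨P, hP⟩ := exists_an h2 (trace_zero h1 h3)
  obtain ⟨x, hx⟩ := h.tor
  refine Le.of_conj (Ps P⁻¹) ?_
  rw [← Ps_conj]
  exact Le.comm ((bor F).h x) (by rwa [hP.h]) hc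

/-- a four-group that contains a split involution -/
theorem Bd.four {b n c : ℕ} (h : Bd F (c - 1) b n) (h2 : (2 : F) ≠ 0) (hq : 11 ≤ Fintype.card F) (hc : c ≤ b)
    {E : Subgroup (MulAut S)} (hE : ∀ α ∈ E, α ^ 2 = 1) {A B : GL (Fin 2) F} (hA : Ps A ∈ E) (hB : Ps B ∈ E)
    (h1 : Ps A ≠ 1) (h3 : Ps B ≠ 1) (h4 : Ps A * Ps B ≠ 1) (hs : IsSquare (-(A : Matrix (Fin 2) (Fin 2) F).det)) :
    Lo 2 E c := by
  obtain ⟨P, hP⟩ := exists_dg h2 (trace_zero h1 (hE _ hA)) hs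
  obtain ⟨x, hx⟩ := h.tor
  have e1 : ∀ C, Ps C ∈ E → Ps (P⁻¹ * C * P) ^ 2 = 1 := fun C hC => by
    rw [Ps_conj, conj_pow, hE _ hC, mul_one, mul_inv_cancel]
  have e2 : ∀ C, Ps C ≠ 1 → Ps (P⁻¹ * C * P) ≠ 1 := fun C hC e => hC (by
    rwa [Ps_conj, mul_inv_eq_one, mul_eq_left] at e)
  have h5 : An (P⁻¹ * B * P) := hP.an h2 (trace_zero (e2 _ h3) (e1 _ hB)) (by
    rw [show P⁻¹ * A * P * (P⁻¹ * B * P) = P⁻¹ * (A * B) * P by group]
    exact trace_zero (e2 _ (by rwa [map_mul])) (e1 _ (by rw [map_mul]; exact mul_mem hA hB)))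
  have e3 : ∀ C, Ps C ∈ E → Ps (P⁻¹ * C * P) ∈ E.map (MulAut.conj (Ps P⁻¹)).toMonoidHom := fun C hC =>
    ⟨_, hC, (Ps_conj P C).symm⟩
  refine Lo.of_conj (Ps P⁻¹) (lo_trick (zc hq) (e3 A hA) (e3 B hB) (hP.h x) (h.dg _ hP (e1 _ hA)) ?_)
  rw [h5.h]
  exact Lo.le hx hc

theorem Bd.four' {b n c : ℕ} (h : Bd F (c - 1) b n) (h2 : (2 : F) ≠ 0) (hq : 11 ≤ Fintype.card F) (hc : c ≤ b)
    {E : Subgroup (MulAut S)} (hE : ∀ α ∈ E, α ^ 2 = 1) {A B : GL (Fin 2) F} (hA : Ps A ∈ E) (hB : Ps B ∈ E)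
    (h1 : Ps A ≠ 1) (h3 : Ps B ≠ 1) (h4 : Ps A ≠ Ps B)
    (hs : IsSquare (-1 : F) ∨ ¬ IsSquare (A : Matrix (Fin 2) (Fin 2) F).det) : Lo 2 E c := by
  have h5 : Ps A * Ps B ≠ 1 := fun e => h4 (mul_right_cancel (e.trans ((pow_two _).symm.trans (hE _ hB)).symm))
  have h6 : Ps B * Ps A ≠ 1 := fun e => h5 (mul_eq_one_comm.1 e)
  by_cases e1 : IsSquare (-(A : Matrix (Fin 2) (Fin 2) F).det)
  · exact h.four h2 hq hc hE hA hB h1 h3 h5 e1
  by_cases e2 : IsSquare (-(B : Matrix (Fin 2) (Fin 2) F).det)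
  · exact h.four h2 hq hc hE hB hA h3 h1 h6 e2
  have h7 : IsSquare (-1 : F) := by
    by_contra e
    refine hs.resolve_left e ?_
    simpa using isSquare_mul e e1
  refine h.four h2 hq hc hE (A := A * B) (B := B) (by rw [map_mul]; exact mul_mem hA hB) hB (by rwa [map_mul]) h3
    (by rwa [map_mul, mul_assoc, ← pow_two, hE _ hB, mul_one]) ?_
  rw [Units.val_mul, det_mul]
  simpa using h7.mul (isSquare_mul e1 e2)

theorem exists_third {G : Type*} [Group G] {E : Subgroup G} [Finite E] (h : 2 < Nat.card E) (a : G) :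
    ∃ b ∈ E, b ≠ 1 ∧ a ≠ b := by
  by_contra! e
  have h1 : (E : Set G) ⊆ {1, a} := fun b hb => (eq_or_ne b 1).imp id fun h2 => (e b hb h2).symm
  have h2 : Nat.card E ≤ _ := Set.ncard_le_ncard h1 (Set.toFinite _)
  have h3 := Set.ncard_insert_le 1 ({a} : Set G)
  rw [Set.ncard_singleton] at h3
  omega

theorem row89 (ho : Odd (Fintype.card F)) (hq : 11 ≤ Fintype.card F) : Row89 2 S := by
  obtain ⟨r, hr⟩ := CharP.exists F
  have : Fact r.Prime := ⟨CharP.char_is_prime F r⟩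
  have h2 : (2 : F) ≠ 0 := Ring.two_ne_zero fun e => by
    have := FiniteField.even_card_of_char_two e
    have := Nat.odd_iff.1 ho
    omega
  refine row89_of_lo fun E hE hn j h0 hj => ?_
  have hE2 : ∀ x ∈ E, x * x = 1 := fun x hx => (pow_two x).symm.trans (hE.2 x hx)
  by_cases hl : ∀ x ∈ E, ∃ C : GL (Fin 2) F, x = lift (cj C)
  · obtain ⟨T, h3, hT⟩ := exists_eight ho hq
    have B : Bd F 4 6 8 := bd h2 hq T hT (o := 3) h3 (by norm_num) (by omega) (by norm_num)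
    have h4 : j ≤ 2 := (Nat.pow_le_pow_iff_right one_lt_two).1 (hj ▸ RkPSL.card_linear h2 le_rfl E hE2 hl)
    obtain ⟨α, hα, h5⟩ := Set.not_subset.1 hn
    obtain ⟨A, rfl⟩ := hl α hα
    have h6 : Ps A ≠ 1 := fun e => h5 (by rw [← Ps_def, e]; exact one_mem _)
    rcases (show j = 1 ∨ j = 2 by omega) with rfl | rfl
    · exact (B.any h2 (by norm_num) h6 (hE.2 _ hα)).lo hα
    · obtain ⟨β, hβ, h7, h8⟩ := exists_third (E := E) (by rw [hj]; norm_num) (Ps A)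
      obtain ⟨C, rfl⟩ := hl β hβ
      exact Bd.four' (c := 5) B h2 hq (by norm_num) hE.2 hα hβ h6 h7 h8 (Or.inr fun e => h5 (mem_inn e))
  · push Not at hl
    obtain ⟨γ, hγ, h3⟩ := hl
    obtain ⟨C, σ, rfl⟩ := surj_two r γ
    have h4 : σ ≠ 1 := by
      rintro rfl
      exact h3 C (by rw [map_one, mul_one])
    have h5 : σ * σ = 1 := RkPSL.field_sq le_rfl (hE2 _ hγ)
    have h6 := le_card ho hq h4 h5
    obtain ⟨T, h7, hT⟩ := exists_half (F := F)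
    have B : Bd F 6 10 12 := bd h2 hq T hT (o := 6) (by omega) (by norm_num) (by omega) (by norm_num)
    have h8 : j ≤ 3 := (Nat.pow_le_pow_iff_right one_lt_two).1 (hj ▸ RkPSL.rkAut_two h2 E hE2)
    have h9 : Nat.card E ≤ 2 * Nat.card ↥(E ⊓ Ps.range) := RkLin.card_le_two_mul fun x hx hxn y hy hyn => by
      obtain ⟨A, τ, rfl⟩ := surj_two r x
      obtain ⟨D, τ', rfl⟩ := surj_two r y
      have e1 : τ * τ = 1 := RkPSL.field_sq le_rfl (hE2 _ hx)
      have e2 := RkPSL.field_inv_unique e1 (RkPSL.field_sq le_rfl (hE2 _ hy)) (by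
        rintro rfl
        exact hxn ⟨hx, A, by rw [map_one, mul_one]; rfl⟩) (by
        rintro rfl
        exact hyn ⟨hy, D, by rw [map_one, mul_one]; rfl⟩)
      refine ⟨mul_mem hx hy, A * GeneralLinearGroup.map (τ : F →+* F) D, ?_⟩
      rw [RkPSL.semi_mul, ← e2, e1, map_one, mul_one]
      rfl
    rcases (show j = 1 ∨ 2 ≤ j by omega) with rfl | h10
    · refine (le_of_reach B.rt (H915.Gs.reach_two (by omega) _ ?_) (by norm_num)).lo hγ
      rw [orderOf_eq_prime (hE.2 _ hγ) fun e => h3 1 (by rw [e, map_one, map_one])]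
      exact Nat.prime_two
    have h11 : 4 ≤ Nat.card E := hj ▸ Nat.pow_le_pow_right two_pos h10
    obtain ⟨_, ⟨hα, A, rfl⟩, h12⟩ :=
      (E ⊓ Ps.range).bot_or_exists_ne_one.resolve_left ((one_lt_card_iff_ne_bot _).1 (by omega))
    rcases (show j = 2 ∨ j = 3 by omega) with rfl | rfl
    · exact (B.any h2 (by norm_num) h12 (hE.2 _ hα)).lo hα
    · obtain ⟨_, ⟨hβ, D, rfl⟩, h13, h14⟩ := exists_third (E := E ⊓ Ps.range) (by omega) (Ps A)
      exact Bd.four' (c := 7) B h2 hq (by norm_num) hE.2 hα hβ h12 h13 h14 (Or.inl (isSquare_neg_one h4 h5))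

theorem row88 (ho : Odd (Fintype.card F)) : Row88 2 S := by
  have h2 : (2 : F) ≠ 0 := Ring.two_ne_zero fun e => by
    have := FiniteField.even_card_of_char_two e
    have := Nat.odd_iff.1 ho
    omega
  refine row88_of_lo fun E hE j h0 hj => ?_
  have h8 : j ≤ 3 := (Nat.pow_le_pow_iff_right one_lt_two).1
    (hj ▸ RkPSL.rkAut_two h2 E fun x hx => (pow_two x).symm.trans (hE.2 x hx))
  rw [small_two] at h0
  omega

/-- all odd `q ≥ 11` -/
theorem row (ho : Odd (Fintype.card F)) (hq : 11 ≤ Fintype.card F) : Row 2 S := ⟨row88 ho, row89 ho hq⟩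

end Cfsg.Agent.TwoF.XL.L2

namespace Cfsg.Agent.TwoF.XL

/-- **`L₂(q)`, `q` odd, `p = 2`** -/
theorem ltwo : LTwo := fun _ _ _ ho hq _ => L2.row ho hq

end Cfsg.Agent.TwoF.XL
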