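import Cfsg.Agent.TwoF.XL.L2.Abs
import Cfsg.Agent.ClassicalGeometry.AutPSL.Main

/-!
# TwoF / XL / L2: involutions of `PGL₂(F)` (helper77)
-/

set_option autoImplicit false

namespace Cfsg.Agent.TwoF.XL.L2

open Matrix
open Cfsg.Agent.ClassicalGeometry.AutPSL.Root Cfsg.Agent.ClassicalGeometry.AutPSL.Auto
  Cfsg.Agent.ClassicalGeometry.AutPSL.Main Cfsg.Agent.ClassicalGeometry.AutPSL.FieldAutTwo
  Cfsg.Agent.ClassicalGeometry.AutPSL.Images

variable {F : Type} [Field F]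

/-- the diagonal torus -/
def Dm : Fˣ →* SpecialLinearGroup (Fin 2) F where
  toFun x := ⟨!![(x : F), 0; 0, (x : F)⁻¹], by simp [det_fin_two]⟩
  map_one' := Subtype.ext (by
    ext i j
    fin_cases i <;> fin_cases j <;> simp)
  map_mul' x y := Subtype.ext (by
    show _ = !![(x : F), 0; 0, (x : F)⁻¹] * !![(y : F), 0; 0, (y : F)⁻¹]
    ext i j
    fin_cases i <;> fin_cases j <;> simp [mul_comm])

theorem coe_Dm (x : Fˣ) : (Dm x : Matrix (Fin 2) (Fin 2) F) = !![(x : F), 0; 0, (x : F)⁻¹] := rfl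

/-- the Borel subgroup of `PSL₂(F)` -/
def bor (F : Type) [Field F] : Bor F (ProjectiveSpecialLinearGroup (Fin 2) F) where
  u c := pr (X c)
  h := pr.comp Dm
  add a b := by
    rw [← map_mul]
    congr 1
    refine Subtype.ext ?_
    show (X (a + b)).1 = (X a).1 * (X b).1
    rw [coe_X, coe_X, coe_X]
    ext i j
    fin_cases i <;> fin_cases j <;> simp [add_comm]
  inj a h := pr_transvection_injective h01 (h.trans (by
    rw [← map_one pr]
    congr 1
    refine Subtype.ext ?_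
    rw [show (SpecialLinearGroup.transvection h01 (0 : F)).1 = _ from coe_X 0]
    ext i j
    fin_cases i <;> fin_cases j <;> simp))
  cnj x c := by
    rw [mul_inv_eq_iff_eq_mul, MonoidHom.comp_apply, ← map_mul, ← map_mul]
    congr 1
    refine Subtype.ext ?_
    show (Dm x).1 * (X c).1 = (X _).1 * (Dm x).1
    rw [coe_X, coe_X, coe_Dm]
    ext i j
    fin_cases i <;> fin_cases j <;> simp
    field_simp
  ker x h := by
    rw [MonoidHom.comp_apply, ← map_one pr]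
    refine (pr_eq_of_smul (c := (x : F)) ?_).symm
    rw [coe_Dm, inv_eq_of_mul_eq_one_right ((pow_two _).symm.trans h)]
    ext i j
    fin_cases i <;> fin_cases j <;> simp

/-- the automorphisms induced by `GL₂(F)` -/
def Ps : GL (Fin 2) F →* MulAut (ProjectiveSpecialLinearGroup (Fin 2) F) := lift.comp cj

theorem Ps_def (C : GL (Fin 2) F) : Ps C = lift (cj C) := rfl

theorem Ps_pr {C : GL (Fin 2) F} {g g' : SpecialLinearGroup (Fin 2) F}
    (h : (C : Matrix (Fin 2) (Fin 2) F) * g = g' * C) : Ps C (pr g) = pr g' := by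
  rw [Ps_def, lift_pr]
  congr 1
  refine Subtype.ext ?_
  rw [show (cj C g).1 = _ from coe_cj C g, h, mul_assoc, ← Units.val_mul, mul_inv_cancel, Units.val_one, mul_one]

theorem trace_zero {C : GL (Fin 2) F} (h1 : Ps C ≠ 1) (h2 : Ps C ^ 2 = 1) : C 0 0 + C 1 1 = 0 := by
  obtain ⟨s, hs⟩ := (injective_aux (C := C * C) (σ := 1) (τ := 1) (by
    rw [map_one fld, mul_one, map_one, ← Ps_def, map_mul, ← pow_two, h2])).1
  by_contra h
  have e := fun i j => congrFun (congrFun hs i) j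
  have e1 := e 0 0
  have e2 := e 0 1
  have e3 := e 1 0
  have e4 := e 1 1
  simp only [scalar_apply, Units.val_mul, mul_apply, Fin.sum_univ_two, diagonal_apply_eq, ne_eq, zero_ne_one,
    one_ne_zero, not_false_eq_true, diagonal_apply_ne] at e1 e2 e3 e4
  have f1 : C 0 1 = 0 := (mul_eq_zero.1 (show C 0 1 * (C 0 0 + C 1 1) = 0 by linear_combination -e2)).resolve_right h
  have f2 : C 1 0 = 0 := (mul_eq_zero.1 (show C 1 0 * (C 0 0 + C 1 1) = 0 by linear_combination -e3)).resolve_right h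
  have f3 : C 1 1 = C 0 0 := sub_eq_zero.1
    ((mul_eq_zero.1 (show (C 1 1 - C 0 0) * (C 0 0 + C 1 1) = 0 by linear_combination e1 - e4)).resolve_right h)
  refine h1 ?_
  rw [Ps_def, cj_eq_one_of_scalar (r := C 0 0), map_one]
  ext i j
  fin_cases i <;> fin_cases j <;> simp [f1, f2, f3]

theorem mem_inn {C : GL (Fin 2) F} (h : IsSquare (C : Matrix (Fin 2) (Fin 2) F).det) :
    Ps C ∈ Inn (ProjectiveSpecialLinearGroup (Fin 2) F) := by
  obtain ⟨s, hs⟩ := h
  have h0 : s ≠ 0 := left_ne_zero_of_mul (hs ▸ C.det_ne_zero)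
  let g : SpecialLinearGroup (Fin 2) F := ⟨s⁻¹ • (C : Matrix (Fin 2) (Fin 2) F), by
    rw [det_smul, hs, Fintype.card_fin]
    field_simp⟩
  have hg : (C : Matrix (Fin 2) (Fin 2) F) = s • (g : Matrix (Fin 2) (Fin 2) F) := (smul_inv_smul₀ h0 _).symm
  refine ⟨pr g, MulEquiv.ext fun y => ?_⟩
  obtain ⟨y, rfl⟩ := pr_surjective y
  rw [MulAut.conj_apply, ← map_inv, ← map_mul, ← map_mul]
  refine (Ps_pr ?_).symm
  rw [hg, Matrix.smul_mul, Matrix.mul_smul]
  congr 1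
  exact congrArg Subtype.val (inv_mul_cancel_right (g * y) g).symm

theorem coe_conj {C P : GL (Fin 2) F} {W : Matrix (Fin 2) (Fin 2) F}
    (h : (C : Matrix (Fin 2) (Fin 2) F) * P = P * W) : ((P⁻¹ * C * P : GL (Fin 2) F) : Matrix (Fin 2) (Fin 2) F) = W := by
  rw [Units.val_mul, Units.val_mul, mul_assoc, h, ← mul_assoc, ← Units.val_mul, inv_mul_cancel, Units.val_one, one_mul]

theorem exists_rat (h2 : (2 : F) ≠ 0) {C : GL (Fin 2) F} (h : C 0 0 + C 1 1 = 0) : ∃ P : GL (Fin 2) F,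
    (C : Matrix (Fin 2) (Fin 2) F) * P = P * !![0, -(C : Matrix (Fin 2) (Fin 2) F).det; 1, 0] := by
  have h0 := C.det_ne_zero
  have h1 : C 1 1 = -C 0 0 := eq_neg_of_add_eq_zero_right h
  have key : ∀ x y : F, x * (C 1 0 * x + C 1 1 * y) - (C 0 0 * x + C 0 1 * y) * y ≠ 0 → ∃ P : GL (Fin 2) F,
      (C : Matrix (Fin 2) (Fin 2) F) * P = P * !![0, -(C : Matrix (Fin 2) (Fin 2) F).det; 1, 0] := fun x y e => by
    refine ⟨GeneralLinearGroup.mkOfDetNeZero !![x, C 0 0 * x + C 0 1 * y; y, C 1 0 * x + C 1 1 * y]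
      (by rwa [det_fin_two_of]), ?_⟩
    rw [GeneralLinearGroup.val_mkOfDetNeZero, det_fin_two]
    ext i j
    fin_cases i <;> fin_cases j <;> simp [mul_apply, Fin.sum_univ_two, h1] <;> ring
  rw [det_fin_two] at h0
  by_cases e1 : C 1 0 = 0
  · by_cases e2 : C 0 1 = 0
    · refine key 1 1 fun e => h0 ?_
      have : C 0 0 = 0 := (mul_eq_zero.1 (show 2 * C 0 0 = 0 by
        rw [e1, e2, h1] at e
        linear_combination -e)).resolve_left h2
      rw [this, e1, zero_mul, mul_zero, sub_zero]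
    · exact key 0 1 (by simpa using e2)
  · exact key 1 0 (by simpa using e1)

/-- both diagonal entries vanish -/
def An (C : GL (Fin 2) F) : Prop := C 0 0 = 0 ∧ C 1 1 = 0

/-- diagonal of trace zero -/
def Dg (C : GL (Fin 2) F) : Prop := C 0 1 = 0 ∧ C 1 0 = 0 ∧ C 1 1 = -C 0 0

theorem exists_an (h2 : (2 : F) ≠ 0) {C : GL (Fin 2) F} (h : C 0 0 + C 1 1 = 0) :
    ∃ P : GL (Fin 2) F, An (P⁻¹ * C * P) := by
  obtain ⟨P, hP⟩ := exists_rat h2 h
  have := coe_conj hP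
  exact ⟨P, by rw [this]; rfl, by rw [this]; rfl⟩

theorem exists_dg (h2 : (2 : F) ≠ 0) {C : GL (Fin 2) F} (h : C 0 0 + C 1 1 = 0)
    (hs : IsSquare (-(C : Matrix (Fin 2) (Fin 2) F).det)) : ∃ P : GL (Fin 2) F, Dg (P⁻¹ * C * P) := by
  obtain ⟨P, hP⟩ := exists_rat h2 h
  obtain ⟨s, hs⟩ := hs
  have h0 : s ≠ 0 := left_ne_zero_of_mul (hs ▸ neg_ne_zero.2 C.det_ne_zero)
  let Q : GL (Fin 2) F := GeneralLinearGroup.mkOfDetNeZero !![s, -s; 1, 1] (by
    rw [det_fin_two_of, show s * 1 - -s * 1 = 2 * s by ring]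
    exact mul_ne_zero h2 h0)
  have := coe_conj (C := C) (P := P * Q) (W := !![s, 0; 0, -s]) (by
    rw [Units.val_mul, ← mul_assoc, hP, mul_assoc, mul_assoc, hs, GeneralLinearGroup.val_mkOfDetNeZero]
    congr 1
    ext i j
    fin_cases i <;> fin_cases j <;> simp [mul_apply, Fin.sum_univ_two])
  exact ⟨P * Q, by rw [this]; rfl, by rw [this]; rfl, by rw [this]; rfl⟩

theorem An.h {C : GL (Fin 2) F} (h : An C) (x : Fˣ) : Ps C ((bor F).h x) = (bor F).h x⁻¹ := by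
  refine Ps_pr (g := Dm x) (g' := Dm x⁻¹) ?_
  rw [coe_Dm, coe_Dm]
  ext i j
  fin_cases i <;> fin_cases j <;> simp [mul_apply, Fin.sum_univ_two, h.1, h.2, mul_comm]

theorem Dg.h {C : GL (Fin 2) F} (h : Dg C) (x : Fˣ) : Ps C ((bor F).h x) = (bor F).h x := by
  refine Ps_pr (g := Dm x) (g' := Dm x) ?_
  rw [coe_Dm]
  ext i j
  fin_cases i <;> fin_cases j <;> simp [mul_apply, Fin.sum_univ_two, h.1, h.2.1, mul_comm]

theorem Dg.u {C : GL (Fin 2) F} (h : Dg C) (c : F) : Ps C ((bor F).u c) = (bor F).u (-c) := by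
  refine Ps_pr (g := X c) (g' := X (-c)) ?_
  rw [coe_X, coe_X]
  ext i j
  fin_cases i <;> fin_cases j <;> simp [mul_apply, Fin.sum_univ_two, h.1, h.2.1, h.2.2, mul_comm]

theorem Dg.an (h2 : (2 : F) ≠ 0) {A B : GL (Fin 2) F} (h : Dg A) (hB : B 0 0 + B 1 1 = 0)
    (hAB : (A * B) 0 0 + (A * B) 1 1 = 0) : An B := by
  have h0 := A.det_ne_zero
  rw [det_fin_two, h.1, zero_mul, sub_zero] at h0
  simp only [Units.val_mul, mul_apply, Fin.sum_univ_two, h.1, h.2.1, h.2.2] at hAB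
  have h1 : B 0 0 = 0 := (mul_eq_zero.1 (show (A 0 0 * 2) * B 0 0 = 0 by
    linear_combination hAB + A 0 0 * hB)).resolve_left (mul_ne_zero (left_ne_zero_of_mul h0) h2)
  exact ⟨h1, by rwa [h1, zero_add] at hB⟩

end Cfsg.Agent.TwoF.XL.L2
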